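import Cfsg.Agent.Lib.HSMult.Elements
import Cfsg.Agent.Lib.SporadicB.DoubleCover
import Cfsg.Agent.Lib.SchurMult.PerfectCover
import Cfsg.Agent.Lib.Mathieu.HSLattice

/-!
The Schur multiplier of HS has order two: the preimage of HS, acting on 100 points, in the double
cover of the alternating group is a stem extension, as some involution without fixed points is a
product of fifty transpositions and so lifts to an element of order four.
-/

set_option autoImplicit false

namespace CfsgLib.HSMult

open CfsgLib.SporadicB.DoubleCover CfsgLib.Mathieu CfsgLib.Mathieu.HS Equiv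

variable {n : ℕ}

/-- The square of the lift of two disjoint transpositions. -/
theorem lift2_sq {a b c d : Fin n} (hab : a ≠ b) (hac : a ≠ c) (had : a ≠ d) (hbc : b ≠ c)
    (hbd : b ≠ d) (hcd : c ≠ d) : lift2 hab hcd * lift2 hab hcd = negOne n := by
  have hanti : (gam c - gam d) * (gam a - gam b) = -((gam a - gam b) * (gam c - gam d)) := by
    simp only [sub_mul, mul_sub, gam_anti (Ne.symm hac), gam_anti (Ne.symm had), gam_anti (Ne.symm hbc),
      gam_anti (Ne.symm hbd)]
    abel
  apply Subtype.ext; apply Units.ext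
  show (gam a - gam b) * (gam c - gam d) * ((gam a - gam b) * (gam c - gam d)) = -1
  rw [mul_assoc, ← mul_assoc (gam c - gam d), hanti, eneg_mul, emul_neg, ← mul_assoc, ← mul_assoc,
    sub_sq hab, eneg_one_mul, eneg_mul, sub_sq hcd, neg_neg]

/-- Lifts of disjoint pairs of transpositions commute. -/
theorem lift2_comm {a b c d a' b' c' d' : Fin n} (hab : a ≠ b) (hcd : c ≠ d) (hab' : a' ≠ b')
    (hcd' : c' ≠ d')
    (h : [a, b, c, d].all (fun u => [a', b', c', d'].all fun v => decide (u ≠ v)) = true) :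
    Commute (lift2 hab hcd) (lift2 hab' hcd') := by
  simp only [List.all_cons, List.all_nil, Bool.and_eq_true, decide_eq_true_eq, and_true] at h
  obtain ⟨⟨a1, a2, a3, a4⟩, ⟨b1, b2, b3, b4⟩, ⟨c1, c2, c3, c4⟩, d1, d2, d3, d4⟩ := h
  have e : ∀ {p q r s : Fin n}, p ≠ r → p ≠ s → q ≠ r → q ≠ s →
      (gam p - gam q) * (gam r - gam s) = -((gam r - gam s) * (gam p - gam q)) := by
    intro p q r s h1 h2 h3 h4
    simp only [sub_mul, mul_sub, gam_anti h1, gam_anti h2, gam_anti h3, gam_anti h4]
    abel
  apply Subtype.ext; apply Units.ext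
  show (gam a - gam b) * (gam c - gam d) * ((gam a' - gam b') * (gam c' - gam d')) =
    (gam a' - gam b') * (gam c' - gam d') * ((gam a - gam b) * (gam c - gam d))
  calc (gam a - gam b) * (gam c - gam d) * ((gam a' - gam b') * (gam c' - gam d'))
      = (gam a - gam b) * ((gam c - gam d) * (gam a' - gam b')) * (gam c' - gam d') := by
        simp only [mul_assoc]
    _ = -((gam a - gam b) * (gam a' - gam b') * ((gam c - gam d) * (gam c' - gam d'))) := by
        rw [e c1 c2 d1 d2, emul_neg, eneg_mul]; simp only [mul_assoc]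
    _ = -((gam a' - gam b') * ((gam a - gam b) * (gam c' - gam d')) * (gam c - gam d)) := by
        rw [e a1 a2 b1 b2, e c3 c4 d3 d4, eneg_mul, emul_neg, neg_neg]; simp only [mul_assoc]
    _ = _ := by
        rw [e a3 a4 b3 b4, emul_neg, eneg_mul, neg_neg]; simp only [mul_assoc]

theorem freeSwaps_ok : (freeSwaps.all fun q => decide (q.1 ≠ q.2.1) && decide (q.1 ≠ q.2.2.1) &&
      decide (q.1 ≠ q.2.2.2) && decide (q.2.1 ≠ q.2.2.1) && decide (q.2.1 ≠ q.2.2.2) &&
      decide (q.2.2.1 ≠ q.2.2.2)) = true ∧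
    freeSwaps.Pairwise (fun q r => ([q.1, q.2.1, q.2.2.1, q.2.2.2].all fun u =>
      [r.1, r.2.1, r.2.2.1, r.2.2.2].all fun v => decide (u ≠ v)) = true) ∧
    freeSwaps.length = 25 := by decide +kernel

/-- The product of pairs of transpositions. -/
def swapsProd (l : List (Fin 100 × Fin 100 × Fin 100 × Fin 100)) : Perm (Fin 100) :=
  (l.map fun q => swap q.1 q.2.1 * swap q.2.2.1 q.2.2.2).prod

theorem swapsProd_table : ∀ u : Fin 100, ((swapsProd freeSwaps u : Fin 100) : ℕ) = hsTables.img 19 u := by
  decide +kernel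

theorem el19 : ((el 19 : hsGroup) : Perm (Fin 100)) = swapsProd freeSwaps :=
  Equiv.ext fun u => Fin.ext ((realises.img 19 (by decide +kernel) u).trans (swapsProd_table u).symm)

theorem exists_lift (l : List (Fin 100 × Fin 100 × Fin 100 × Fin 100))
    (h1 : (l.all fun q => decide (q.1 ≠ q.2.1) && decide (q.1 ≠ q.2.2.1) &&
      decide (q.1 ≠ q.2.2.2) && decide (q.2.1 ≠ q.2.2.1) && decide (q.2.1 ≠ q.2.2.2) &&
      decide (q.2.2.1 ≠ q.2.2.2)) = true)
    (h2 : l.Pairwise fun q r => ([q.1, q.2.1, q.2.2.1, q.2.2.2].all fun u =>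
      [r.1, r.2.1, r.2.2.1, r.2.2.2].all fun v => decide (u ≠ v)) = true) :
    ∃ X : cover 100, (proj 100 X : Perm (Fin 100)) = swapsProd l ∧ X * X = negOne 100 ^ l.length ∧
      ∀ (a b c d : Fin 100) (hab : a ≠ b) (hcd : c ≠ d),
        (∀ r ∈ l, ([a, b, c, d].all fun u =>
          [r.1, r.2.1, r.2.2.1, r.2.2.2].all fun v => decide (u ≠ v)) = true) →
        Commute (lift2 hab hcd) X := by
  induction l with
  | nil => exact ⟨1, by simp [swapsProd], by simp, fun _ _ _ _ _ _ _ => Commute.one_right _⟩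
  | cons q l ih =>
    rw [List.all_cons, Bool.and_eq_true] at h1
    rw [List.pairwise_cons] at h2
    obtain ⟨X, hX, hsq, hcomm⟩ := ih h1.2 h2.2
    have hq := h1.1
    simp only [Bool.and_eq_true, decide_eq_true_eq] at hq
    obtain ⟨⟨⟨⟨⟨e1, e2⟩, e3⟩, e4⟩, e5⟩, e6⟩ := hq
    refine ⟨lift2 e1 e6 * X, ?_, ?_, ?_⟩
    · rw [map_mul, Subgroup.coe_mul, proj_lift2, hX]; rfl
    · have hc : Commute (lift2 e1 e6) X := hcomm _ _ _ _ e1 e6 h2.1
      calc lift2 e1 e6 * X * (lift2 e1 e6 * X) = lift2 e1 e6 * (X * lift2 e1 e6) * X := by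
            simp only [mul_assoc]
        _ = lift2 e1 e6 * lift2 e1 e6 * (X * X) := by rw [← hc.eq]; simp only [mul_assoc]
        _ = _ := by rw [lift2_sq e1 e2 e3 e4 e5 e6, hsq, List.length_cons, pow_succ']
    · intro a b c d hab hcd hr
      exact (lift2_comm hab hcd e1 e6 (hr q List.mem_cons_self)).mul_right
        (hcomm a b c d hab hcd fun r h => hr r (List.mem_cons_of_mem _ h))

/-- The preimage of HS in the double cover of the alternating group. -/
noncomputable def hsCover : Subgroup (cover 100) :=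
  hsGroup.comap ((alternatingGroup (Fin 100)).subtype.comp (proj 100))

/-- The projection. -/
noncomputable def hsProj : hsCover →* hsGroup :=
  ((alternatingGroup (Fin 100)).subtype.comp (proj 100)).subgroupComap hsGroup

theorem commutator_hs : commutator hsGroup = ⊤ := by
  haveI := isSimpleGroup_hsGroup
  rcases (commutator hsGroup).normal_of_characteristic.eq_bot_or_eq_top with h | h
  · exfalso
    have hcomm : ∀ p q : hsGroup, p * q = q * p := fun p q => by
      rw [← commutatorElement_eq_one_iff_mul_comm, ← Subgroup.mem_bot, ← h, commutator_def]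
      exact Subgroup.commutator_mem_commutator (Subgroup.mem_top _) (Subgroup.mem_top _)
    letI : CommGroup hsGroup := { (inferInstance : Group hsGroup) with mul_comm := hcomm }
    have hp := IsSimpleGroup.prime_card (α := hsGroup)
    rw [card_hsGroup] at hp
    norm_num at hp
  · exact h

theorem sign_eq_one (g : hsGroup) : Perm.sign (g : Perm (Fin 100)) = 1 := by
  let f : hsGroup →* ℤˣ := Perm.sign.comp hsGroup.subtype
  have : commutator hsGroup ≤ f.ker := Abelianization.commutator_subset_ker f
  rw [commutator_hs] at this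
  exact MonoidHom.mem_ker.1 (this (Subgroup.mem_top g))

theorem hsProj_surjective : Function.Surjective hsProj := by
  intro g
  obtain ⟨X, hX⟩ := proj_surjective 100 ⟨g, Perm.mem_alternatingGroup.2 (sign_eq_one g)⟩
  exact ⟨⟨X, by show (proj 100 X : Perm (Fin 100)) ∈ hsGroup; rw [hX]; exact g.2⟩,
    Subtype.ext (by show (proj 100 X : Perm (Fin 100)) = _; rw [hX])⟩

theorem ker_hsProj (x : hsCover) (hx : x ∈ hsProj.ker) :
    (x : cover 100) = 1 ∨ (x : cover 100) = negOne 100 := by
  refine (ker_proj _).1 (Subtype.ext ?_)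
  have h1 : hsProj x = 1 := hx
  have h := congrArg Subtype.val h1
  exact h

theorem stem_hsProj : Cfsg.IsStemExtension hsProj ∧ Nat.card hsProj.ker = 2 := by
  obtain ⟨h1, h2, h3⟩ := freeSwaps_ok
  obtain ⟨X, hX, hsq, -⟩ := exists_lift freeSwaps h1 h2
  rw [h3, show (25 : ℕ) = 2 * 12 + 1 from rfl, pow_succ, pow_mul, pow_two, negOne_mul_self, one_pow,
    one_mul] at hsq
  have hXm : X ∈ hsCover := by
    show (proj 100 X : Perm (Fin 100)) ∈ hsGroup
    rw [hX, ← el19]; exact (el 19).2
  set x : hsCover := ⟨X, hXm⟩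
  have hz : negOne 100 ∈ hsCover := hsq ▸ mul_mem hXm hXm
  set z : hsCover := ⟨negOne 100, hz⟩
  have hzker : z ∈ hsProj.ker := by
    refine MonoidHom.mem_ker.2 (Subtype.ext ?_)
    show ((proj 100 (negOne 100) : alternatingGroup (Fin 100)) : Perm (Fin 100)) = 1
    rw [(ker_proj (negOne 100)).2 (Or.inr rfl)]
    rfl
  have hcen : ∀ u ∈ hsProj.ker, u ∈ Subgroup.center hsCover := by
    intro u hu
    rw [Subgroup.mem_center_iff]
    intro g
    apply Subtype.ext
    show (g : cover 100) * u = u * g
    rcases ker_hsProj u hu with h | h <;> rw [h]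
    · rw [one_mul, mul_one]
    · exact Subgroup.mem_center_iff.1 (negOne_central 100) g
  have hzc : z ∈ commutator hsCover := by
    have hmap : (commutator hsCover).map hsProj = ⊤ := by
      rw [commutator_def, Subgroup.map_commutator, Subgroup.map_top_of_surjective _ hsProj_surjective,
        ← commutator_def, commutator_hs]
    obtain ⟨d, hd, hdx⟩ : hsProj x ∈ (commutator hsCover).map hsProj := by
      rw [hmap]; exact Subgroup.mem_top _
    have hk : x⁻¹ * d ∈ hsProj.ker := by
      rw [MonoidHom.mem_ker, map_mul, map_inv, hdx, inv_mul_cancel]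
    have hd2 : d * d = z := by
      set k := x⁻¹ * d with hkdef
      have hd' : d = x * k := by rw [hkdef, mul_inv_cancel_left]
      have hkc := Subgroup.mem_center_iff.1 (hcen k hk)
      have hkk : k * k = 1 := by
        apply Subtype.ext
        show (k : cover 100) * k = 1
        rcases ker_hsProj k hk with h | h <;> rw [h]
        · exact one_mul 1
        · exact negOne_mul_self 100
      rw [hd']
      calc x * k * (x * k) = x * (k * x) * k := by simp only [mul_assoc]
        _ = x * x * (k * k) := by rw [← hkc x]; simp only [mul_assoc]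
        _ = z := by rw [hkk, mul_one]; exact Subtype.ext hsq
    rw [← hd2]
    exact mul_mem hd hd
  have hker : ∀ u ∈ hsProj.ker, u = 1 ∨ u = z := fun u hu =>
    (ker_hsProj u hu).imp (fun h => Subtype.ext h) fun h => Subtype.ext h
  refine ⟨⟨hsProj_surjective, hcen, fun u hu => ?_⟩, ?_⟩
  · rcases hker u hu with rfl | rfl
    · exact one_mem _
    · exact hzc
  · rw [← SetLike.coe_sort_coe, Nat.card_coe_set_eq,
      show (hsProj.ker : Set hsCover) = {1, z} from Set.ext fun u => ⟨hker u, by
        rintro (rfl | rfl); exacts [one_mem _, hzker]⟩]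
    exact Set.ncard_pair fun h => negOne_ne_one 100 (congrArg Subtype.val h).symm

theorem hasCyclicSchurMultiplier_hsGroup : Cfsg.HasCyclicSchurMultiplier hsGroup 2 := by
  obtain ⟨hstem, hc2⟩ := stem_hsProj
  haveI : IsCyclic hsProj.ker := isCyclic_of_prime_card (hp := ⟨Nat.prime_two⟩) hc2
  refine ⟨⟨hsCover, inferInstance, inferInstance, hsProj, hstem,
    ⟨(zmodCyclicMulEquiv inferInstance).symm.trans
      (AddEquiv.toMultiplicative (ZMod.ringEquivCongr hc2).toAddEquiv)⟩⟩,
    fun Γ _ _ σ hσ => ?_⟩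
  rcases (Nat.dvd_prime Nat.prime_two).1 (card_ker_dvd_two hσ) with h1 | h1
  · haveI := (Nat.card_eq_one_iff_unique.1 h1).1
    exact ⟨1, fun z => ⟨1, Subsingleton.elim _ _⟩⟩
  · haveI : IsCyclic σ.ker := isCyclic_of_prime_card (hp := ⟨Nat.prime_two⟩) h1
    let e : Multiplicative (ZMod 2) ≃* σ.ker :=
      (AddEquiv.toMultiplicative (ZMod.ringEquivCongr h1.symm).toAddEquiv).trans
        (zmodCyclicMulEquiv inferInstance)
    exact ⟨e.toMonoidHom, e.surjective⟩

theorem hasCyclicSchurMultiplier_HS : Cfsg.HasCyclicSchurMultiplier Cfsg.Spor.HS 2 := by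
  obtain ⟨e⟩ := HSLattice.tri_equiv
  let e' : hsGroup ≃* Cfsg.Spor.HS :=
    e.symm.trans ((HSLattice.hsTri.equivMapOfInjective _ (Subgroup.subtype_injective _)).trans
      (MulEquiv.subgroupCongr HSLattice.hs_eq_map.symm))
  exact CfsgLib.SchurMult.hasSchurMultiplier_congr e' hasCyclicSchurMultiplier_hsGroup

end CfsgLib.HSMult
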