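import Cfsg.Agent.Lib.HSMult.Data
import Cfsg.Agent.Lib.HSMult.Cert
import Cfsg.Agent.Lib.SchurMult.PermCert
import Cfsg.Agent.Lib.SchurMult.TwoCollectOne
import Cfsg.Agent.Lib.SchurMult.OddSylow
import Cfsg.Agent.Lib.SchurMult.SmallSylow
import Cfsg.Agent.Lib.Mathieu.HS

/-! The elements of the certificate inside HS, and the bound on the kernels of its stem extensions. -/

set_option autoImplicit false
set_option maxRecDepth 100000

namespace CfsgLib.HSMult

open CfsgLib.SchurMult CfsgLib.SchurMult.PermCert CfsgLib.Mathieu CfsgLib.Mathieu.GraphAut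
  CfsgLib.Mathieu.RankThree CfsgLib.Mathieu.HS

/-- The tables. -/
def hsTables : Tables where
  n := 100
  depth := 7
  ts := eltTbls

/-- The tables are the listed words and are read alike in both packings. -/
noncomputable def memOk : Bool :=
  eltTbls.length == eltWords.length && (List.range eltTbls.length).all fun i =>
    isPerm7 100 (eltTbls.getD i 0) && wordValid HSCert.gensP (eltWords.getD i []) &&
      (List.range 100).all fun x =>
        app7 (eltTbls.getD i 0) x == word7 HSCert.gensP (eltWords.getD i []) x &&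
          hsTables.img i x == app7 (eltTbls.getD i 0) x

theorem mem_ok : memOk = true := by decide +kernel

theorem colHS_table : colHS.tableOK = true := by decide +kernel

theorem two_ok : hsTables.twoOK colHS ptsHS orderHS = true := by decide +kernel

theorem pair_ok : (decide (pairX < 2 ^ colHS.n) && decide (pairY < 2 ^ colHS.n) &&
    (colHS.mulNF pairX pairY).1 == (colHS.mulNF pairY pairX).1 && (colHS.mulNF pairX pairX).1 == 0 &&
    colHS.solvedOneOK (pairComm colHS pairX pairY) extraHS) = true := by decide +kernel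

theorem code_spec {i : ℕ} (hi : i < eltTbls.length) :
    isPerm7 100 (eltTbls.getD i 0) = true ∧ perm7 100 (eltTbls.getD i 0) ∈ hsGroup ∧
      ∀ x < 100, hsTables.img i x = app7 (eltTbls.getD i 0) x := by
  have h := mem_ok
  simp only [memOk, Bool.and_eq_true, List.all_eq_true, List.mem_range, beq_iff_eq] at h
  obtain ⟨⟨hp, hv⟩, hw⟩ := h.2 i hi
  refine ⟨hp, ?_, fun x hx => (hw x hx).2⟩
  have he : perm7 100 (eltTbls.getD i 0) = wordPerm7 100 HSCert.gensP (eltWords.getD i []) :=
    Equiv.ext fun x => Fin.ext (by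
      rw [perm7_apply hp, wordPerm7_apply gens_perm hv, (hw x.1 x.2).1])
  rw [he]
  exact wordPerm7_mem perm7_mem_gen7 hv

/-- The listed elements. -/
noncomputable def el (i : ℕ) : hsGroup :=
  if hi : i < eltTbls.length then ⟨_, (code_spec hi).2.1⟩ else 1

theorem realises : hsTables.Realises hsGroup.subtype el where
  deg := rfl
  inj := Subgroup.subtype_injective _
  img i hi u := by
    have hi' : i < eltTbls.length := hi
    obtain ⟨hp, -, him⟩ := code_spec hi'
    rw [el, dif_pos hi', Subgroup.coe_subtype]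
    show ((perm7 100 (eltTbls.getD i 0) u : Fin 100) : ℕ) = _
    rw [perm7_apply hp, him u u.2]

theorem card_hs : Nat.card hsGroup = 2 ^ 9 * (3 ^ 2 * 5 ^ 3 * 7 * 11) := by
  rw [card_hsGroup]; norm_num

universe v

variable {Γ : Type} [Group Γ] [Finite Γ] {σ : Γ →* hsGroup}

/-- The `2`-part. -/
theorem two_part (hσ : Cfsg.IsStemExtension σ) :
    ∃ w : Γ, w ^ 2 = 1 ∧ ∀ z ∈ σ.ker, ∀ k : ℕ, z ^ 2 ^ k = 1 → z ∈ Subgroup.zpowers w := by
  have hok := two_ok
  simp only [Tables.twoOK, Bool.and_eq_true, List.all_eq_true, decide_eq_true_eq, Nat.blt_eq] at hok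
  obtain ⟨⟨⟨⟨hrel, hconj⟩, hlen⟩, hkeys⟩, hpts⟩ := hok
  have hpair := pair_ok
  simp only [Bool.and_eq_true, decide_eq_true_eq, beq_iff_eq] at hpair
  obtain ⟨⟨⟨⟨hx, hy⟩, hxy⟩, hxx⟩, hsolved⟩ := hpair
  refine two_elements_le_zpowers colHS el (fun k => el (colHS.n + k)) colHS_table hx hy hxy hxx hsolved
    (fun v hv => ?_) (fun e he => ?_) ?_ ⟨3 ^ 2 * 5 ^ 3 * 7 * 11, by norm_num, card_hs⟩ hσ
  · rw [List.getD_eq_getElem _ _ hv]
    exact realises.eq_of_sameWord (hrel _ (List.getElem_mem hv))
  · have := hconj e he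
    cases e with
    | assoc pre v => trivial
    | conj k m pairs =>
      simp only [List.all_eq_true] at this
      intro q hq
      have e := realises.eq_of_sameWord (this q hq)
      rw [lprod, lprod_append, lprod_digits, lprod_digits] at e
      simp only [lprod, mul_one] at e
      exact mul_inv_eq_iff_eq_mul.2 e
  · rw [← hlen]
    have := realises.length_le_card (fun p hp => hpts p hp) hkeys
      (Subgroup.closure (el '' Set.Iio colHS.n)) (fun w hw => by
        obtain ⟨x, -, rfl⟩ := List.mem_map.1 hw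
        refine Tables.lprod_mem fun i hi => Subgroup.subset_closure ⟨i, Set.mem_Iio.2 ?_, rfl⟩
        have : ∀ k x, ∀ i ∈ Collector.digits k x, i < k := by
          intro k
          induction k with
          | zero => simp [Collector.digits]
          | succ k ih =>
            intro x i hi
            rw [Collector.digits] at hi
            cases hb : x.testBit k <;> simp [hb] at hi
            · exact (ih x i hi).trans (Nat.lt_succ_self k)
            · rcases hi with hi | rfl
              · exact (ih x i hi).trans (Nat.lt_succ_self k)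
              · exact Nat.lt_succ_self i
        exact this _ _ i hi)
    rwa [List.length_map] at this

/-- Pairs of words with equal values, for the prime 3. -/
def rels3 : List (List ℕ × List ℕ) :=
  [([11, 12], [12, 11]), (Tables.rep 11 3, []), (Tables.rep 12 3, []),
    ([13, 11], Tables.rep 11 2 ++ Tables.rep 12 0 ++ [13]),
    ([13, 12], Tables.rep 11 2 ++ Tables.rep 12 1 ++ [13])]

/-- Pairs of words with equal values, for the prime 5. -/
def rels5 : List (List ℕ × List ℕ) :=
  [([14, 15], [16, 15, 14]), (Tables.rep 14 5, []), (Tables.rep 15 5, []), (Tables.rep 16 5, []),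
    ([14, 16], [16, 14]), ([15, 16], [16, 15]),
    ([17, 14], Tables.rep 14 4 ++ Tables.rep 16 0 ++ [17]), ([17, 16], Tables.rep 14 0 ++ Tables.rep 16 1 ++ [17]),
    ([18, 15], Tables.rep 15 4 ++ Tables.rep 16 3 ++ [18]), ([18, 16], Tables.rep 15 0 ++ Tables.rep 16 1 ++ [18])]

theorem rels3_ok : rels3.all (fun r => hsTables.sameWord r.1 r.2) = true := by decide +kernel

theorem rels5_ok : rels5.all (fun r => hsTables.sameWord r.1 r.2) = true := by decide +kernel

theorem z5_ne : (List.range 100).all (fun u => hsTables.img 16 u == u) = false := by decide +kernel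

theorem words_ok :
    (hsTables.keysIncr pts3 words3 = true ∧ words3.length = 3 ^ 2 ∧
      (∀ w ∈ words3, ∀ i ∈ w, i = 11 ∨ i = 12) ∧ ∀ q ∈ pts3, q < 100) ∧
    (hsTables.keysIncr pts5 words5 = true ∧ words5.length = 5 ^ 3 ∧
      (∀ w ∈ words5, ∀ i ∈ w, i = 14 ∨ i = 15) ∧ ∀ q ∈ pts5, q < 100) := by decide +kernel

theorem not_three (hσ : Cfsg.IsStemExtension σ) : ¬ 3 ∣ Nat.card σ.ker := by
  have hok := rels3_ok
  simp only [rels3, List.all_cons, List.all_nil, Bool.and_eq_true, and_true] at hok
  obtain ⟨e1, ex, ey, egx, egy⟩ := hok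
  replace e1 := realises.eq_of_sameWord e1
  replace ex := realises.eq_of_sameWord ex
  replace ey := realises.eq_of_sameWord ey
  replace egx := realises.eq_of_sameWord egx
  replace egy := realises.eq_of_sameWord egy
  simp only [lprod_append, Tables.lprod_rep, lprod, mul_one] at e1 ex ey egx egy
  obtain ⟨w3, -⟩ := words_ok
  exact OddSylow.not_dvd_of_square hσ Nat.prime_three e1 ex (mul_inv_eq_iff_eq_mul.2 egx)
    (mul_inv_eq_iff_eq_mul.2 egy) (by norm_num)
    (realises.not_dvd_index Nat.prime_three w3.2.2.2 w3.1 w3.2.1 w3.2.2.1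
      (m := 2 ^ 9 * 5 ^ 3 * 7 * 11) (by rw [card_hs]; norm_num) (by norm_num)
      (Tables.natCard_closure_le_square (by norm_num) ex ey e1))

theorem not_five (hσ : Cfsg.IsStemExtension σ) : ¬ 5 ∣ Nat.card σ.ker := by
  have hok := rels5_ok
  simp only [rels5, List.all_cons, List.all_nil, Bool.and_eq_true, and_true] at hok
  obtain ⟨e1, ex, ey, ez, exz, eyz, egx, egz, ehy, ehz⟩ := hok
  replace e1 := realises.eq_of_sameWord e1
  replace ex := realises.eq_of_sameWord ex
  replace ey := realises.eq_of_sameWord ey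
  replace ez := realises.eq_of_sameWord ez
  replace exz := realises.eq_of_sameWord exz
  replace eyz := realises.eq_of_sameWord eyz
  replace egx := realises.eq_of_sameWord egx
  replace egz := realises.eq_of_sameWord egz
  replace ehy := realises.eq_of_sameWord ehy
  replace ehz := realises.eq_of_sameWord ehz
  simp only [lprod_append, Tables.lprod_rep, lprod, mul_one] at e1 ex ey ez exz eyz egx egz ehy ehz
  obtain ⟨-, w5⟩ := words_ok
  have hzc : el 14 * el 15 * (el 14)⁻¹ * (el 15)⁻¹ = el 16 := by rw [e1]; group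
  refine OddSylow.not_dvd_of_extraspecial hσ (p := 5) (by norm_num) hzc ex ey ?_ exz eyz
    (mul_inv_eq_iff_eq_mul.2 egx) (mul_inv_eq_iff_eq_mul.2 egz) (by norm_num)
    (mul_inv_eq_iff_eq_mul.2 ehy) (mul_inv_eq_iff_eq_mul.2 ehz) (by norm_num) ?_
  · intro h1
    have hz := z5_ne
    rw [← Bool.not_eq_true] at hz
    refine hz ?_
    simp only [List.all_eq_true, List.mem_range, beq_iff_eq]
    intro u hu
    rw [← realises.img 16 (by decide +kernel) ⟨u, hu⟩, h1, map_one]
    rfl
  · exact realises.not_dvd_index (p := 5) (by norm_num) w5.2.2.2 w5.1 w5.2.1 w5.2.2.1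
      (m := 2 ^ 9 * 3 ^ 2 * 7 * 11) (by rw [card_hs]; norm_num) (by norm_num)
      (Tables.natCard_closure_le_cube (by norm_num) ex ey ez hzc exz eyz)

/-- Every stem extension has kernel of order at most two. -/
theorem card_ker_dvd_two (hσ : Cfsg.IsStemExtension σ) : Nat.card σ.ker ∣ 2 := by
  obtain ⟨w, hw, hz⟩ := two_part hσ
  have hodd : ∀ p : ℕ, p.Prime → p ∣ Nat.card σ.ker → p = 2 := fun p hp hpk => by
    by_contra h2
    by_cases h3 : p = 3
    · subst h3; exact not_three hσ hpk
    by_cases h5 : p = 5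
    · subst h5; exact not_five hσ hpk
    refine not_dvd_card_ker_of_sq_not_dvd hσ hp ?_ hpk
    rw [card_hs]
    intro hsq
    have hpd : p ∣ 2 ^ 9 * (3 ^ 2 * 5 ^ 3 * 7 * 11) := (dvd_pow_self p two_ne_zero).trans hsq
    simp only [hp.dvd_mul] at hpd
    rcases hpd with h | ((h | h) | h) | h
    · exact h2 ((Nat.prime_dvd_prime_iff_eq hp Nat.prime_two).1 (hp.dvd_of_dvd_pow h))
    · exact h3 ((Nat.prime_dvd_prime_iff_eq hp Nat.prime_three).1 (hp.dvd_of_dvd_pow h))
    · exact h5 ((Nat.prime_dvd_prime_iff_eq hp Nat.prime_five).1 (hp.dvd_of_dvd_pow h))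
    · obtain rfl := (Nat.prime_dvd_prime_iff_eq hp (by norm_num)).1 h; norm_num at hsq
    · obtain rfl := (Nat.prime_dvd_prime_iff_eq hp (by norm_num)).1 h; norm_num at hsq
  have htwo := Nat.eq_prime_pow_of_unique_prime_dvd (n := Nat.card σ.ker) Nat.card_pos.ne'
    fun {d} hd hdd => hodd d hd hdd
  have hle : σ.ker ≤ Subgroup.zpowers w := fun z hzk =>
    hz z hzk (Nat.card σ.ker).primeFactorsList.length (by
      have := pow_card_eq_one' (G := σ.ker) (x := ⟨z, hzk⟩)
      rw [htwo] at this
      exact congrArg Subtype.val this)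
  exact (Subgroup.card_dvd_of_le hle).trans
    (by rw [Nat.card_zpowers]; exact orderOf_dvd_of_pow_eq_one hw)

end CfsgLib.HSMult
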